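import Cfsg.Agent.Lib.ToddCox.HCT.Main
import Cfsg.Agent.Lib.ToddCox.He2058.Main
set_option autoImplicit false
set_option maxRecDepth 100000
namespace Cfsg.Agent.Lib.ToddCox.HCGT

abbrev rels : Set (FreeGroup Cfsg.Agent.Lib.ToddCox.OPHC.Gen) := Cfsg.Agent.Lib.ToddCox.HCT.rels
abbrev sg : Cfsg.Agent.Lib.ToddCox.OPHC.Gen → Bool → ℕ := Cfsg.Agent.Lib.ToddCox.HCT.sg
abbrev LT : List (FreeGroup Cfsg.Agent.Lib.ToddCox.OPHC.Gen) := Cfsg.Agent.Lib.ToddCox.HCT.LT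

/-- The five letters as words in the seven letters of the Held group. -/
def Emb : List (List ℕ) := [[1, 3, 6, 3, 2, 1, 3, 6], [0, 1, 4, 3, 2, 3, 4, 5, 3, 2, 1, 0, 3, 5], [3, 5, 3, 2, 3, 5], [2, 4, 3, 6, 3, 2, 3, 2, 6, 3, 2, 3, 4, 6], [1, 2, 4, 3, 5, 3, 2, 3, 2, 5, 3, 2, 1, 3, 4, 5]]

/-- The five letters on the 2058 points. -/
noncomputable def tab (y x : ℕ) : ℕ := tabW Cfsg.Agent.Lib.ToddCox.He2058.tab (Emb.getD y []) x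

end Cfsg.Agent.Lib.ToddCox.HCGT
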